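import Cfsg.Agent.Lib.Helper17.E6I.DefsE
import Cfsg.Agent.Lib.Helper8.E6I.E1

set_option autoImplicit false

/-! Piece N1 of the farm E6I (helper17, S2175): conjugation of the abelian group `U_{ht ≥ 7}` by `U`. -/

namespace Cfsg.Agent.Lib.Helper50.E6I

open Cfsg.Lie Cfsg.Agent.Lib.Helper18 Cfsg.Agent.Lib.Helper17 Cfsg.Agent.Lib.Helper36
  Cfsg.Agent.Lib.Helper6 Matrix Cfsg.Agent.Lib.Helper17.E6I Cfsg.Agent.Lib.Helper8.E6I

variable {F : Type*} [Field F] (hB : Base chevE6 F)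

/-- Boolean table check for N1 -/
def N1_chk (r s : ℕ) : Bool :=
  match e6add r s with
  | none => true
  | some k => decide (k ∈ S7) && decide (k ≠ 55) && decide (k ≠ 65) && decide (k ≠ 67) &&
      decide (s ≠ 71) && (decide (k ≠ 66 ∧ k ≠ 68) || decide (s = 55 ∨ s = 65 ∨ s = 67))

theorem N1_tab : ∀ r : Fin 72, ∀ s ∈ S7, N1_chk r s = true := by
  decide +kernel

theorem N1_tab' {r s k : ℕ} (hr : r < 72) (hs : s ∈ S7) (h : e6add r s = some k) :
    k ∈ S7 ∧ k ≠ 55 ∧ k ≠ 65 ∧ k ≠ 67 ∧ s ≠ 71 ∧ ((k = 66 ∨ k = 68) → (s = 55 ∨ s = 65 ∨ s = 67)) := by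
  have h1 := N1_tab ⟨r, hr⟩ s hs
  simp only [N1_chk, h, Bool.and_eq_true, decide_eq_true_eq, Bool.or_eq_true] at h1
  obtain ⟨⟨⟨⟨⟨a1, a2⟩, a3⟩, a4⟩, a5⟩, a6⟩ := h1
  refine ⟨a1, a2, a3, a4, a5, ?_⟩
  intro hk
  rcases a6 with a6 | a6
  · rcases hk with hk | hk
    · exact absurd hk a6.1
    · exact absurd hk a6.2
  · exact a6

theorem N1_pc_tab : ∀ s ∈ S7, ∀ s' ∈ S7, e6add s s' = none := by
  decide +kernel

theorem N1_S7_range : ∀ s ∈ S7, 36 ≤ s ∧ s < 72 := by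
  decide

theorem N1_pos_tab : ∀ r : Fin 72, chevE6.IsPosRoot r → 36 ≤ r.val := by
  decide +kernel

theorem N1_pos {r : ℕ} (h : chevE6.IsPosRoot r) : 36 ≤ r ∧ r < 72 :=
  ⟨N1_pos_tab ⟨r, h.1⟩ h, h.1⟩

theorem N1_PC : CG.PC hB S7 := by
  intro s hs s' hs' t u
  exact e6_comm_none hB s s' (N1_S7_range s hs).1 (N1_S7_range s hs).2 (N1_S7_range s' hs').1
    (N1_S7_range s' hs').2 (N1_pc_tab s hs s' hs') t u

theorem N1_lp_mul {L : List ℕ} (h : CG.PC hB L) (c d : ℕ → F) :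
    CG.lp hB L c * CG.lp hB L d = CG.lp hB L (fun s => c s + d s) := by
  induction L with
  | nil => simp
  | cons k L ih =>
    rw [CG.lp_cons, CG.lp_cons, CG.lp_cons, ← ih h.tail, ← hB.xg_add]
    have e := CG.lp_comm hB (g := hB.xg k (d k)) (L := L)
      (fun s hs u => h k (by simp) s (by simp [hs]) _ u) c
    calc hB.xg k (c k) * CG.lp hB L c * (hB.xg k (d k) * CG.lp hB L d)
        = hB.xg k (c k) * (CG.lp hB L c * hB.xg k (d k)) * CG.lp hB L d := by group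
      _ = hB.xg k (c k) * (hB.xg k (d k) * CG.lp hB L c) * CG.lp hB L d := by rw [e]
      _ = _ := by group

/-- the relation between the coefficients before and after conjugation -/
def N1_Q (c δ : ℕ → F) : Prop :=
  δ 55 = 0 ∧ δ 65 = 0 ∧ δ 67 = 0 ∧ (c 55 = 0 → c 65 = 0 → c 67 = 0 → δ 66 = 0 ∧ δ 68 = 0) ∧
    ((∀ s ∈ S7, s ≠ 71 → c s = 0) → ∀ s, δ s = 0)

theorem N1_step_aux [CharP F 2] {r : ℕ} (hr : chevE6.IsPosRoot r) (t : F) (c : ℕ → F) (L : List ℕ)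
    (hL : ∀ s ∈ L, s ∈ S7) :
    ∃ δ : ℕ → F, hB.xg r t * CG.lp hB L c * (hB.xg r t)⁻¹ = CG.lp hB L c * CG.lp hB S7 δ ∧
      N1_Q c δ := by
  induction L with
  | nil =>
    refine ⟨fun _ => 0, ?_, rfl, rfl, rfl, fun _ _ _ => ⟨rfl, rfl⟩, fun _ _ => rfl⟩
    rw [CG.lp_zero]; simp
  | cons s L ih =>
    obtain ⟨δ, e, q1, q2, q3, q4, q5⟩ := ih (fun x hx => hL x (by simp [hx]))
    have hs : s ∈ S7 := hL s (by simp)
    have e0 : hB.xg r t * CG.lp hB (s :: L) c * (hB.xg r t)⁻¹ =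
        (hB.xg r t * hB.xg s (c s) * (hB.xg r t)⁻¹) * (hB.xg r t * CG.lp hB L c * (hB.xg r t)⁻¹) := by
      rw [CG.lp_cons]; group
    rw [e0, e, CG.lp_cons]
    rcases hk : e6add r s with _ | k
    · refine ⟨δ, ?_, q1, q2, q3, q4, q5⟩
      rw [e6_comm_none hB r s (N1_pos hr).1 (N1_pos hr).2 (N1_S7_range s hs).1 (N1_S7_range s hs).2 hk]
      group
    · obtain ⟨k1, k2, k3, k4, k5, k6⟩ := N1_tab' (N1_pos hr).2 hs hk
      refine ⟨CG.upd δ k (t * c s), ?_, ?_, ?_, ?_, ?_, ?_⟩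
      · rw [e6_conj_some hB r s k (N1_pos hr).1 (N1_pos hr).2 (N1_S7_range s hs).1
          (N1_S7_range s hs).2 hk,
          ← CG.lp_mul_single hB (by decide) k1 (fun x hx e' u => N1_PC hB k k1 x hx e' u) δ]
        have c1 := CG.lp_comm hB (g := hB.xg k (t * c s)) (L := L)
          (fun x hx u => N1_PC hB k k1 x (hL x (by simp [hx])) _ u) c
        have c2 := CG.lp_comm hB (g := hB.xg k (t * c s)) (L := S7)
          (fun x hx u => N1_PC hB k k1 x hx _ u) δ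
        calc hB.xg s (c s) * hB.xg k (t * c s) * (CG.lp hB L c * CG.lp hB S7 δ)
            = hB.xg s (c s) * (hB.xg k (t * c s) * CG.lp hB L c) * CG.lp hB S7 δ := by group
          _ = hB.xg s (c s) * (CG.lp hB L c * hB.xg k (t * c s)) * CG.lp hB S7 δ := by rw [c1]
          _ = hB.xg s (c s) * CG.lp hB L c * (hB.xg k (t * c s) * CG.lp hB S7 δ) := by group
          _ = hB.xg s (c s) * CG.lp hB L c * (CG.lp hB S7 δ * hB.xg k (t * c s)) := by rw [c2]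
      · simp [CG.upd, Ne.symm k2, q1]
      · simp [CG.upd, Ne.symm k3, q2]
      · simp [CG.upd, Ne.symm k4, q3]
      · intro h55 h65 h67
        obtain ⟨a, b⟩ := q4 h55 h65 h67
        have hz : (k = 66 ∨ k = 68) → t * c s = 0 := by
          intro hk'
          rcases k6 hk' with rfl | rfl | rfl
          · rw [h55, mul_zero]
          · rw [h65, mul_zero]
          · rw [h67, mul_zero]
        constructor
        · by_cases h66 : 66 = k
          · subst h66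
            simp [CG.upd, hz (Or.inl rfl), a]
          · simp [CG.upd, h66, a]
        · by_cases h68 : 68 = k
          · subst h68
            simp [CG.upd, hz (Or.inr rfl), b]
          · simp [CG.upd, h68, b]
      · intro hall x
        have := hall s hs k5
        simp only [CG.upd, this, mul_zero, add_zero, ite_self]
        exact q5 hall x

/-- the relation of the statement -/
def N1_R (c c' : ℕ → F) : Prop :=
  c' 55 = c 55 ∧ c' 65 = c 65 ∧ c' 67 = c 67 ∧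
      (c 55 = 0 → c 65 = 0 → c 67 = 0 → c' 66 = c 66 ∧ c' 68 = c 68) ∧
      ((∀ s ∈ S7, s ≠ 71 → c s = 0) → ∀ s ∈ S7, c' s = c s)

theorem N1_R_trans {c c' c'' : ℕ → F} (h : N1_R c c') (h' : N1_R c' c'') : N1_R c c'' := by
  obtain ⟨a1, a2, a3, a4, a5⟩ := h
  obtain ⟨b1, b2, b3, b4, b5⟩ := h'
  refine ⟨b1.trans a1, b2.trans a2, b3.trans a3, ?_, ?_⟩
  · intro h1 h2 h3
    obtain ⟨x, y⟩ := a4 h1 h2 h3
    obtain ⟨x', y'⟩ := b4 (a1.trans h1) (a2.trans h2) (a3.trans h3)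
    exact ⟨x'.trans x, y'.trans y⟩
  · intro hall s hs
    have h1 := a5 hall
    rw [b5 (fun s hs hne => (h1 s hs).trans (hall s hs hne)) s hs, h1 s hs]

theorem N1_step [CharP F 2] {r : ℕ} (hr : chevE6.IsPosRoot r) (t : F) (c : ℕ → F) :
    ∃ c' : ℕ → F, hB.xg r t * CG.lp hB S7 c * (hB.xg r t)⁻¹ = CG.lp hB S7 c' ∧ N1_R c c' := by
  obtain ⟨δ, e, q1, q2, q3, q4, q5⟩ := N1_step_aux hB hr t c S7 (fun _ h => h)
  refine ⟨fun s => c s + δ s, by rw [e, N1_lp_mul hB (N1_PC hB)], ?_, ?_, ?_, ?_, ?_⟩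
  · simp [q1]
  · simp [q2]
  · simp [q3]
  · intro h1 h2 h3
    obtain ⟨a, b⟩ := q4 h1 h2 h3
    simp [a, b]
  · intro hall s _
    simp [q5 hall s]

theorem conj_S7 [CharP F 2] {u : GL chevE6.Idx F} (hu : u ∈ chevE6.posUnipotent F) (c : ℕ → F) :
    ∃ c' : ℕ → F, u * CG.lp hB S7 c * u⁻¹ = CG.lp hB S7 c' ∧ c' 55 = c 55 ∧ c' 65 = c 65 ∧ c' 67 = c 67 ∧
      (c 55 = 0 → c 65 = 0 → c 67 = 0 → c' 66 = c 66 ∧ c' 68 = c 68) ∧
      ((∀ s ∈ S7, s ≠ 71 → c s = 0) → ∀ s ∈ S7, c' s = c s) := by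
  obtain ⟨d, rfl⟩ := CG.U_form hB (by simp) hu
  have key : ∀ L : List ℕ, (∀ r ∈ L, chevE6.IsPosRoot r) →
      ∃ c' : ℕ → F, CG.lp hB L d * CG.lp hB S7 c * (CG.lp hB L d)⁻¹ = CG.lp hB S7 c' ∧ N1_R c c' := by
    intro L hL
    induction L with
    | nil => exact ⟨c, by simp, rfl, rfl, rfl, fun _ _ _ => ⟨rfl, rfl⟩, fun _ _ _ => rfl⟩
    | cons r L ih =>
      obtain ⟨c1, e1, r1⟩ := ih (fun x hx => hL x (by simp [hx]))
      obtain ⟨c2, e2, r2⟩ := N1_step hB (hL r (by simp)) (d r) c1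
      exact ⟨c2, by rw [CG.lp_cons, CG.conj_mul', e1, e2], N1_R_trans r1 r2⟩
  exact key chevE6.posRoots (fun r hr => by
    have := (List.mem_filter.1 hr).2
    exact of_decide_eq_true this)

end Cfsg.Agent.Lib.Helper50.E6I
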